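import Mathlib

set_option autoImplicit false

namespace Cfsg.Agent.Lib.Helper68.RO

/-- PIECE B4 (pure group theory). -/
theorem quot_normalizer_iso {G : Type*} [Group G] [Finite G] (M : Subgroup G) [M.Normal]
    (P : Sylow 2 G) {T : Subgroup G} (hPT : (P : Subgroup G) ≤ T) :
    Nonempty ((Subgroup.normalizer (((P.subtype hPT : Sylow 2 T) : Subgroup T) : Set T)) ⧸
        (M.subgroupOf T).subgroupOf
          (Subgroup.normalizer (((P.subtype hPT : Sylow 2 T) : Subgroup T) : Set T)) ≃*
      ↥(Subgroup.normalizer ((P : Subgroup G) : Set G) ⊓ T) ⧸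
        M.subgroupOf (Subgroup.normalizer ((P : Subgroup G) : Set G) ⊓ T)) := by
  have hmem : ∀ x : T, x ∈ Subgroup.normalizer (((P.subtype hPT : Sylow 2 T) : Subgroup T) : Set T)
      ↔ (x : G) ∈ Subgroup.normalizer ((P : Subgroup G) : Set G) := by
    intro x
    rw [Subgroup.mem_normalizer_iff, Subgroup.mem_normalizer_iff]
    constructor
    · intro h g
      constructor
      · intro hg
        exact (h ⟨g, hPT hg⟩).1 hg
      · intro hg
        have hgT : g ∈ T := by
          have h1 : (x : G) * g * (x : G)⁻¹ ∈ T := hPT hg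
          have h2 : g = (x : G)⁻¹ * ((x : G) * g * (x : G)⁻¹) * (x : G) := by group
          rw [h2]
          exact T.mul_mem (T.mul_mem (T.inv_mem x.2) h1) x.2
        exact (h ⟨g, hgT⟩).2 hg
    · intro h g
      exact h (g : G)
  let e : ↥(Subgroup.normalizer (((P.subtype hPT : Sylow 2 T) : Subgroup T) : Set T)) ≃*
      ↥(Subgroup.normalizer ((P : Subgroup G) : Set G) ⊓ T) :=
    { toFun := fun x => ⟨((x : T) : G), ⟨(hmem x).1 x.2, (x : T).2⟩⟩
      invFun := fun y => ⟨⟨(y : G), y.2.2⟩, (hmem ⟨(y : G), y.2.2⟩).2 y.2.1⟩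
      left_inv := fun x => rfl
      right_inv := fun y => rfl
      map_mul' := fun x y => rfl }
  refine ⟨QuotientGroup.congr _ _ e ?_⟩
  ext y
  constructor
  · rintro ⟨x, hx, rfl⟩
    exact hx
  · intro hy
    exact ⟨e.symm y, hy, e.apply_symm_apply y⟩

end Cfsg.Agent.Lib.Helper68.RO
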